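import Cfsg.Agent.H91.Overgroup.Matrix
import Cfsg.Agent.H91.Overgroup.Twist
import Cfsg.Agent.H91.Overgroup.SzPair
import Cfsg.Agent.H2.Center
import Cfsg.Agent.H2.St.SLData
import Cfsg.Agent.H2.St.SpData
import Cfsg.Agent.H5.OmegaForms
import Cfsg.Agent.H46.TwistD4
import Cfsg.Prelude.Def_LieTypeChar

/-!
# Every group of Lie type in characteristic `p` is an image of a group with a split pair
-/

set_option autoImplicit false
set_option maxRecDepth 100000

namespace Cfsg.Agent.H91.Overgroup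

open Cfsg Cfsg.Lie Cfsg.Agent.H46

/-- `K` is a quotient, by a subgroup of the torus, of a finite group with a split pair. -/
def HasPair (p : ℕ) (K : Type*) [Group K] : Prop :=
  ∃ (G : Type) (_ : Group G) (_ : Finite G) (D : SplitPair p G) (f : G →* K),
    Function.Surjective f ∧ f.ker ≤ D.P.B ⊓ D.P.N

variable {p : ℕ} [Fact p.Prime]

theorem hasPair_congr {K : Type*} {L : Type*} [Group K] [Group L] (e : K ≃* L) (h : HasPair p K) :
    HasPair p L := by
  obtain ⟨G, hG, hfin, D, f, hf, hk⟩ := h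
  refine ⟨G, hG, hfin, D, e.toMonoidHom.comp f, e.surjective.comp hf, fun x hx => hk ?_⟩
  rw [MonoidHom.mem_ker] at hx ⊢
  exact e.injective (hx.trans e.map_one.symm)

theorem hasPair_self {G : Type} [Group G] [Finite G] (D : SplitPair p G) : HasPair p G :=
  ⟨G, _, inferInstance, D, MonoidHom.id G, Function.surjective_id, fun x hx => by
    rw [MonoidHom.mem_ker, MonoidHom.id_apply] at hx
    subst hx
    exact one_mem _⟩

theorem hasPair_center {G : Type} [Group G] [Finite G] (D : SplitPair p G)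
    (h : Subgroup.center G ≤ D.P.B ⊓ D.P.N) : HasPair p (G ⧸ Subgroup.center G) :=
  ⟨G, _, inferInstance, D, QuotientGroup.mk' (Subgroup.center G), QuotientGroup.mk'_surjective _,
    by rwa [QuotientGroup.ker_mk']⟩

variable {F : Type} [Field F] [Fintype F] [CharP F p]

theorem hasPair_psl (n : ℕ) (hn : 2 ≤ n) : HasPair p (Matrix.ProjectiveSpecialLinearGroup (Fin n) F) := by
  classical
  obtain ⟨M, rfl⟩ : ∃ M, n = M + 1 + 1 := ⟨n - 2, by omega⟩
  refine hasPair_center (slPairOf (F := F) (p := p) M) fun g hg => ?_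
  show g ∈ (H2.St.slData (M + 1) F).borel ⊓ (H2.St.slData (M + 1) F).monomialGrp
  rw [H2.St.RootData.borel_inf_monomial]
  intro i j hij
  rw [Matrix.SpecialLinearGroup.mem_center_iff] at hg
  obtain ⟨r, -, hr⟩ := hg
  show (g : Matrix _ _ F) i j = 0
  rw [← hr, Matrix.scalar_apply, Matrix.diagonal_apply_ne _ hij]

theorem hasPair_psp (m : ℕ) (hm : 1 ≤ m) : HasPair p (Cfsg.PSp m F) := by
  classical
  obtain ⟨M, rfl⟩ : ∃ M, m = M + 1 := ⟨m - 1, by omega⟩
  haveI : Finite (Matrix.symplecticGroup (Fin (M + 1)) F) := Subtype.finite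
  refine hasPair_center (spPairOf (F := F) (p := p) M) fun g hg => ?_
  show g ∈ (H2.St.spData M F).borel ⊓ (H2.St.spData M F).monomialGrp
  rw [H2.St.RootData.borel_inf_monomial]
  intro i j hij
  rw [H2.mem_center_iff_eq (by omega : 1 ≤ M + 1)] at hg
  obtain ⟨x, rfl⟩ := (H2.St.spIdx (M + 1)).surjective i
  obtain ⟨y, rfl⟩ := (H2.St.spIdx (M + 1)).surjective j
  have hxy : x ≠ y := fun e => hij (by rw [e])
  show H2.St.spMat (M + 1) F g (H2.St.spIdx (M + 1) x) (H2.St.spIdx (M + 1) y) = 0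
  rw [H2.St.spMat_apply]
  rcases hg with h | h <;> rw [h] <;> simp [Matrix.one_apply_ne hxy]

theorem hasPair_bc {G : Type} [Group G] [Finite G] {N l : ℕ} (hl : 0 < l) {F : Type} [Field F] [CharP F p]
    [Fintype F] (D : H4.Steinberg.BCData G N F l) : HasPair p (G ⧸ Subgroup.center G) := by
  refine hasPair_center (bcPairOf (p := p) hl D) fun g hg => ?_
  show g ∈ D.rootGen.borel ⊓ D.rootGen.monomialGrp
  rw [H4.Steinberg.RootGen.borel_inf_monomial]
  exact D.rootGen.center_le_torus hg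

theorem hasPair_psu {n q : ℕ} (hF : Fintype.card F = q ^ 2) (hn : 2 ≤ n) : HasPair p (Cfsg.PSU n F q) := by
  classical
  obtain ⟨f⟩ := H4.Steinberg.exists_uFrame (n := n) hF
  exact hasPair_bc (by omega) (f.data hF (by omega))

theorem hasPair_omega_odd (m : ℕ) (hm : 3 ≤ m) (hodd : Odd (Fintype.card F)) :
    HasPair p (Cfsg.POmega F (Cfsg.quadFormOdd m F)) := by
  classical
  have h2 : (2 : F) ≠ 0 := by
    refine Ring.two_ne_zero fun h => ?_
    exact (Nat.not_even_iff_odd.2 hodd)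
      (Nat.even_iff.2 (FiniteField.even_card_of_char_two h))
  haveI : Finite (H4.Steinberg.OddDim.Vec m F) := Pi.finite
  haveI : Finite (H5.orth (H5.qOdd m F)) :=
    Finite.of_injective (fun g => ((g.1 : (H4.Steinberg.OddDim.Vec m F) ≃ₗ[F] (H4.Steinberg.OddDim.Vec m F)) :
      H4.Steinberg.OddDim.Vec m F → H4.Steinberg.OddDim.Vec m F))
      (fun _ _ h => Subtype.ext (LinearEquiv.ext (congrFun h)))
  have e := H5.pomegaEquiv (H5.qOdd m F) (H5.coe_qOdd m)
  exact hasPair_congr e.symm (hasPair_bc (by omega) (H4.Steinberg.OddDim.data h2 (by omega)))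

theorem hasPair_omega_minus (m : ℕ) (hm : 3 ≤ m) (a b : F)
    (hab : ∀ z₁ z₂ : F, z₁ ^ 2 + a * z₁ * z₂ + b * z₂ ^ 2 = 0 → z₁ = 0 ∧ z₂ = 0) :
    HasPair p (Cfsg.POmega F (Cfsg.quadFormMinus m F a b)) := by
  classical
  haveI : Finite (H4.Steinberg.Minus.Idx m → F) := Pi.finite
  haveI : Finite (H5.orth (H5.qMinus m F a b)) :=
    Finite.of_injective (fun g => ((g.1 : (H4.Steinberg.Minus.Idx m → F) ≃ₗ[F] (H4.Steinberg.Minus.Idx m → F)) :
      (H4.Steinberg.Minus.Idx m → F) → (H4.Steinberg.Minus.Idx m → F)))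
      (fun _ _ h => Subtype.ext (LinearEquiv.ext (congrFun h)))
  obtain ⟨f, hp, hcard⟩ := FiniteField.card F p
  have hf : 2 * (f : ℕ) ≠ 0 := by have := f.pos; omega
  letI : Fintype (GaloisField p (2 * f)) := Fintype.ofFinite _
  have hK : Fintype.card (GaloisField p (2 * f)) = Fintype.card F ^ 2 := by
    rw [← Nat.card_eq_fintype_card, GaloisField.card p _ hf, hcard, ← pow_mul, mul_comm 2]
  obtain ⟨E⟩ := H5.nonempty_quadExt (F := F) (K := GaloisField p (2 * f)) rfl hK a b hab
  have e := H5.pomegaEquiv (H5.qMinus m F a b) (H5.coe_qMinus m a b)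
  exact hasPair_congr e.symm (hasPair_bc (by omega) (H4.Steinberg.Minus.data E hK hab (by omega) rfl))

theorem hasPair_omega_plus (m : ℕ) (hm : 4 ≤ m) : HasPair p (Cfsg.POmega F (Cfsg.quadFormPlus m F)) := by
  classical
  haveI : Finite (Fin m ⊕ Fin m → F) := Pi.finite
  haveI : Finite (H5.orth (H5.qPlus m F)) :=
    Finite.of_injective (fun g => ((g.1 : (Fin m ⊕ Fin m → F) ≃ₗ[F] (Fin m ⊕ Fin m → F)) :
      (Fin m ⊕ Fin m → F) → (Fin m ⊕ Fin m → F)))
      (fun a b h => Subtype.ext (LinearEquiv.ext (congrFun h)))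
  have e := H5.pomegaEquiv (H5.qPlus m F) (H5.coe_qPlus m)
  refine hasPair_congr e.symm ?_
  obtain ⟨M, rfl⟩ : ∃ M, m = M + 2 := ⟨m - 2, by omega⟩
  have hq : Nat.card F ≠ 2 ∨ Module.finrank F (Fin (M + 2) ⊕ Fin (M + 2) → F) ≠ 4 :=
    Or.inr (by simp; omega)
  refine hasPair_center (plusPairOf (F := F) (p := p) M hq) fun g hg => ?_
  show g ∈ (H2.St.Plus.plusData M F hq).borel ⊓ (H2.St.Plus.plusData M F hq).monomialGrp
  rw [H2.St.RootSys.borel_inf_monomial]
  exact (H2.St.Plus.plusData M F hq).center_le_torus hg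

/-- Every group of Lie type in characteristic `p` is such a quotient. -/
theorem hasPair_of_isLieTypeChar {K : Type*} [Group K] (hK : Cfsg.IsLieTypeChar p K) : HasPair p K := by
  classical
  have transfer : ∀ {L : Type} [Group L], Nonempty (K ≃* L) → HasPair p L → HasPair p K :=
    fun ⟨e⟩ h => hasPair_congr e.symm h
  rcases hK with ⟨F, _, _, _, n, hn, hq, he⟩ | ⟨F, _, _, _, m, hm, hq, he⟩ |
      ⟨F, _, _, _, n, q, hF, hn, hne, he⟩ | ⟨F, _, _, _, m, hm, hodd, he⟩ | ⟨F, _, _, _, m, hm, he⟩ |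
      ⟨F, _, _, _, m, a, b, hm, hab, he⟩ | ⟨F, _, _, _, he⟩ | ⟨L, _, _, _, q, hq, he⟩ |
      ⟨rfl, F, _, _, m, hm, hF, he⟩ | ⟨rfl, F, _, _, m, hm, hF, he⟩ | ⟨rfl, F, _, _, m, hm, hF, he⟩
  · exact transfer he (hasPair_psl n hn)
  · exact transfer he (hasPair_psp m (by omega))
  · exact transfer he (hasPair_psu hF (by omega))
  · exact transfer he (hasPair_omega_odd m hm hodd)
  · exact transfer he (hasPair_omega_plus m hm)
  · exact transfer he (hasPair_omega_minus (m - 1) (by omega) a b hab)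
  · rcases he with ⟨h3, he⟩ | he | he | he | he
    · exact transfer he (hasPair_self (chevPairOf goodG2 (by decide +kernel) (F := F) p))
    · exact transfer he (hasPair_self (chevPairOf goodF4 (by decide +kernel) (F := F) p))
    · exact transfer he (hasPair_self (chevPairOf goodE6 (by decide +kernel) (F := F) p))
    · exact transfer he (hasPair_self (chevPairOf goodE7 (by decide +kernel) (F := F) p))
    · exact transfer he (hasPair_self (chevPairOf goodE8 (by decide +kernel) (F := F) p))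
  · rcases he with ⟨hc, ⟨e⟩⟩ | ⟨hc, ⟨e⟩⟩
    · obtain ⟨f, hf⟩ := exists_qFrob hq (by norm_num : 0 < 2) hc
      exact transfer ⟨e.trans (MulEquiv.subgroupCongr (twistedE6_eq f hf hc))⟩
        (hasPair_self (graphPairOf (F := L) p okE6 coxE6 f (by decide)))
    · obtain ⟨f, hf⟩ := exists_qFrob hq (by norm_num : 0 < 3) hc
      exact transfer ⟨e.trans (MulEquiv.subgroupCongr (twistedD4_eq f hf hc))⟩
        (hasPair_self (graphPairOf (F := L) p okD4 coxD4 f (by decide)))
  · have H := H7.SzHyp.of_fintype hm hF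
    haveI := H.finite_Sz
    exact transfer he (hasPair_congr H.lieEquiv (hasPair_self (szPairOf H)))
  · haveI : CharP F 2 := charP_of_card_eq_prime_pow hF
    exact transfer he (hasPair_self (f4PairOf hF))
  · haveI : CharP F 3 := charP_of_card_eq_prime_pow hF
    exact transfer he (hasPair_self (reePairOf hF))

end Cfsg.Agent.H91.Overgroup
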